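import Mathlib
import Cfsg.Agent.CurtisTitsD.Omega

/-!
A copy of `SLₙ` and an element exchanging two hyperbolic pairs: from their relations to the
amalgam data of type `D`, and the homomorphism from `Ω⁺`.
-/

set_option autoImplicit false
set_option linter.unusedSectionVars false

namespace CfsgLib.OmegaPres

open Matrix CfsgLib.CurtisTitsA CfsgLib.CurtisTitsD CfsgLib.OrthGeo Cfsg.Geo
open CfsgLib.CurtisTitsD.Data (wEl2)
open CfsgLib.CommutingSLTwo (negOne)
open CfsgLib.Classical.Linear (eq_top_of_transvection_mem)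

/-- Four distinguished indices. -/
structure Frame (ι : Type) where
  p : ι
  o : ι
  r : ι
  q : ι
  hpo : p ≠ o
  hrp : r ≠ p
  hro : r ≠ o
  hqp : q ≠ p
  hqo : q ≠ o
  hqr : q ≠ r

variable {F : Type*} [Field F] {ι : Type} [Fintype ι] [DecidableEq ι] {G : Type*} [Group G]
  (Fr : Frame ι)

/-- The three indices `r, p, o`. -/
def three : Fin 3 ↪ ι :=
  ⟨![Fr.r, Fr.p, Fr.o], fun x y e => by
    fin_cases x <;> fin_cases y <;>
      simp_all [Fr.hrp, Fr.hrp.symm, Fr.hro, Fr.hro.symm, Fr.hpo, Fr.hpo.symm]⟩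

theorem e01_three : e01.trans (three Fr) = two Fr.hrp := by
  ext x; fin_cases x <;> rfl

theorem e12_three : e12.trans (three Fr) = two Fr.hpo := by
  ext x; fin_cases x <;> rfl

/-- The monomial element carrying `p, o` to `o, q`. -/
def cyc : Matrix.SpecialLinearGroup ι F :=
  emb (two Fr.hpo) wEl2 * emb (two Fr.hqo.symm) wEl2

/-- The monomial element carrying `p, o` to `r, q`. -/
def omg : Matrix.SpecialLinearGroup ι F :=
  emb (two Fr.hrp.symm) wEl2 * emb (two Fr.hqo.symm) wEl2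

theorem dual_wEl2 : dual (wEl2 : Matrix.SpecialLinearGroup (Fin 2) F) = wEl2 := by
  refine sl_eq ?_
  rw [dual_val, inv2_val]
  ext i j; fin_cases i <;> fin_cases j <;> simp [wEl2]

theorem dual_omg : dual (omg Fr : Matrix.SpecialLinearGroup ι F) = omg Fr := by
  rw [omg, map_mul, dual_emb, dual_emb, dual_wEl2]

variable (φ : Matrix.SpecialLinearGroup ι F →* G) (T : G)

/-- The conjugated copy of `SL₂`. -/
def tauG : Matrix.SpecialLinearGroup (Fin 2) F →* G :=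
  (MulAut.conj T).toMonoidHom.comp (φ.comp (emb (two Fr.hpo)))

theorem tauG_apply (s : Matrix.SpecialLinearGroup (Fin 2) F) :
    tauG Fr φ T s = T * φ (emb (two Fr.hpo) s) * T⁻¹ := rfl

/-- The relations. -/
structure Rels : Prop where
  fix : ∀ (a b : ι) (h : a ≠ b), a ≠ Fr.o → a ≠ Fr.q → b ≠ Fr.o → b ≠ Fr.q → ∀ t : F,
    Commute T (φ (tv h t))
  flip : ∀ s, T * φ (emb (two Fr.hqo.symm) s) * T⁻¹ = φ (emb (two Fr.hqo.symm) (dual s))
  out : ∀ (a b : ι) (h : a ≠ b), a ≠ Fr.p → a ≠ Fr.o → b ≠ Fr.p → b ≠ Fr.o → ∀ (t : F) s,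
    Commute (φ (tv h t)) (tauG Fr φ T s)
  inn : ∀ s' s, Commute (φ (emb (two Fr.hpo) s')) (tauG Fr φ T s)
  neg : φ (emb (two Fr.hpo) (negOne F)) = tauG Fr φ T (negOne F)
  pin : T = φ (cyc Fr) * tauG Fr φ T wEl2 * (φ (emb (two Fr.hpo) wEl2))⁻¹ * (φ (cyc Fr))⁻¹

variable {Fr φ T} (R : Rels Fr φ T)

include R

theorem Rels.commute_two {a b : ι} (h : a ≠ b) (hao : a ≠ Fr.o) (haq : a ≠ Fr.q) (hbo : b ≠ Fr.o)
    (hbq : b ≠ Fr.q) (s : Matrix.SpecialLinearGroup (Fin 2) F) :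
    Commute T (φ (emb (two h) s)) := by
  have htop : (Subgroup.centralizer ({T} : Set G)).comap (φ.comp (emb (two h))) = ⊤ :=
    eq_top_of_transvection_mem fun i j hij t => by
      rw [Subgroup.mem_comap, MonoidHom.comp_apply, emb_transvection, Subgroup.mem_centralizer_singleton_iff]
      have hs : ∀ k, two h k ≠ Fr.o ∧ two h k ≠ Fr.q := fun k => by
        fin_cases k
        · exact ⟨hao, haq⟩
        · exact ⟨hbo, hbq⟩
      exact (R.fix _ _ _ (hs i).1 (hs i).2 (hs j).1 (hs j).2 t).eq.symm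
  have := htop ▸ Subgroup.mem_top s
  rw [Subgroup.mem_comap, MonoidHom.comp_apply, Subgroup.mem_centralizer_singleton_iff] at this
  exact this.symm

/-- The amalgam data. -/
def Rels.data : CurtisTitsD.Data F ι G where
  p := Fr.p
  o := Fr.o
  r := Fr.r
  q := Fr.q
  hpo := Fr.hpo
  hrp := Fr.hrp
  hro := Fr.hro
  hqp := Fr.hqp
  hqo := Fr.hqo
  hqr := Fr.hqr
  φ := φ
  τ := tauG Fr φ T
  ψ := (MulAut.conj T).toMonoidHom.comp (φ.comp (emb (three Fr)))
  glue01 s := by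
    show T * φ (emb (three Fr) (emb e01 s)) * T⁻¹ = φ (emb (two Fr.hrp) s)
    rw [emb_comp, e01_three, (R.commute_two Fr.hrp Fr.hro Fr.hqr.symm Fr.hpo Fr.hqp.symm s).eq,
      mul_inv_cancel_right]
  glue12 s := by
    show T * φ (emb (three Fr) (emb e12 s)) * T⁻¹ = T * φ (emb (two Fr.hpo) s) * T⁻¹
    rw [emb_comp, e12_three]
  comm_out := R.out
  comm_in := R.inn
  neg_eq := R.neg

theorem Rels.omg_commute : Commute T (φ (omg Fr)) := by
  rw [omg, map_mul]
  refine Commute.mul_right (R.commute_two _ Fr.hpo Fr.hqp.symm Fr.hro Fr.hqr.symm _) ?_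
  have h := R.flip wEl2
  rw [dual_wEl2, mul_inv_eq_iff_eq_mul] at h
  exact h

omit R in
theorem single_conj_comm (A B : Matrix ι ι F) (p o : ι) (e1 : A * B = 1) (hA : A o p = 0) (hB : B o p = 0)
    (s c : F) : (1 + Matrix.single p o s) * (A * (1 + Matrix.single p o c) * B) =
      A * (1 + Matrix.single p o c) * B * (1 + Matrix.single p o s) := by
  have z1 : Matrix.single p o s * (A * Matrix.single p o c * B) = 0 := by
    rw [← Matrix.mul_assoc, ← Matrix.mul_assoc, Matrix.single_mul_mul_single, hA, mul_zero, zero_mul,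
      Matrix.single_zero, Matrix.zero_mul]
  have z2 : A * Matrix.single p o c * B * Matrix.single p o s = 0 := by
    rw [Matrix.mul_assoc, Matrix.mul_assoc, ← Matrix.mul_assoc (Matrix.single p o c),
      Matrix.single_mul_mul_single, hB, mul_zero, zero_mul, Matrix.single_zero, Matrix.mul_zero]
  rw [Matrix.mul_add A, Matrix.mul_one, Matrix.add_mul A, e1, Matrix.add_mul (1 : Matrix ι ι F),
    Matrix.one_mul, Matrix.mul_add (Matrix.single p o s), Matrix.mul_one, z1, Matrix.add_mul (1 : Matrix ι ι F),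
    Matrix.one_mul, Matrix.mul_add (A * Matrix.single p o c * B), Matrix.mul_one, z2]
  abel

omit R in
theorem emb_two_left {a b : ι} (h : a ≠ b) (M : Matrix.SpecialLinearGroup (Fin 2) F) :
    (emb (two h) M : Matrix.SpecialLinearGroup ι F).1 *ᵥ Pi.single a 1 =
      M.1 0 0 • Pi.single a 1 + M.1 1 0 • Pi.single b 1 := by
  have := embMat_mulVec_single (two h) M.1 0
  rw [Fin.sum_univ_two, two_zero, two_one] at this
  rw [emb_val, this]
  ext i
  simp [Pi.single_apply]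

omit R in
/-- The two root elements at disjoint pairs commute in such data. -/
theorem cm_trivial_of (D : CurtisTitsD.Data F ι G) (φ' : Matrix.SpecialLinearGroup ι F →* G) (T' : G)
    (ω : Matrix.SpecialLinearGroup ι F) (hφ : D.φ = φ')
    (hτ : ∀ s, D.τ s = T' * φ' (emb (two D.hpo) s) * T'⁻¹) (hω : Commute T' (φ' ω)) {α β : F}
    (hp : ω.1 *ᵥ Pi.single D.p 1 = α • Pi.single D.r 1)
    (ho : ω.1 *ᵥ Pi.single D.o 1 = β • Pi.single D.q 1)
    (hω' : (ω⁻¹ : Matrix.SpecialLinearGroup ι F).1 D.o D.p = 0) (hαβ : α * β ≠ 0) :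
    D.CmTrivial := by
  intro s t
  have hpos : D.pos D.q D.r t = D.x ω (-(t / (α * β))) := by
    have e := D.x_eq_pos ω D.hqr (c := -(α * β)) (by
      rw [wedge_conj_sl, hp, ho, wedge_smul_left, wedge_smul_right, smul_smul, neg_smul, ← smul_neg]
      congr 1
      exact eb_swap D.q D.r) (-(t / (α * β)))
    rw [e]
    congr 1
    rw [neg_mul_neg, div_mul_cancel₀ _ hαβ]
  set c : F := -(t / (α * β))
  have hup : ∀ u : F, emb (two D.hpo) (up2 u) = (tv D.hpo u : Matrix.SpecialLinearGroup ι F) :=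
    fun u => by rw [up2, emb_transvection]; rfl
  have hcomm : Commute (tv D.hpo s : Matrix.SpecialLinearGroup ι F) (ω * tv D.hpo c * ω⁻¹) := by
    have hop : ω.1 D.o D.p = 0 := by
      have := congrFun hp D.o
      rw [mulVec_single_one, col_apply, Pi.smul_apply, Pi.single_eq_of_ne D.hro.symm, smul_zero] at this
      exact this
    refine sl_eq ?_
    have e1 : ω.1 * (ω⁻¹ : Matrix.SpecialLinearGroup ι F).1 = 1 := by
      rw [← val_mul, mul_inv_cancel, val_one]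
    exact single_conj_comm _ _ D.p D.o e1 hop hω' s c
  rw [Data.cm, commutatorElement_eq_one_iff_mul_comm, hpos]
  refine Prod.ext ?_ ?_
  · show D.τ (up2 s) * (D.φ ω * D.τ (up2 c) * (D.φ ω)⁻¹) = D.φ ω * D.τ (up2 c) * (D.φ ω)⁻¹ * D.τ (up2 s)
    have e : D.φ ω * D.τ (up2 c) * (D.φ ω)⁻¹ = T' * φ' (ω * tv D.hpo c * ω⁻¹) * T'⁻¹ := by
      rw [hτ, hup, hφ, map_mul, map_mul, map_inv]
      calc φ' ω * (T' * φ' (tv D.hpo c) * T'⁻¹) * (φ' ω)⁻¹
          = (φ' ω * T') * φ' (tv D.hpo c) * (φ' ω * T')⁻¹ := by group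
        _ = _ := by rw [← hω.eq]; group
    rw [e, hτ, hup]
    simpa [MulAut.conj_apply] using ((hcomm.map φ').map (MulAut.conj T').toMonoidHom).eq
  · rw [Prod.snd_mul, Prod.snd_mul, D.x_snd]
    show xM _ * xM _ = xM _ * xM _
    rw [← xM_add, ← xM_add, add_comm]

theorem omg_p : (omg Fr : Matrix.SpecialLinearGroup ι F).1 *ᵥ Pi.single Fr.p 1 = (-1 : F) • Pi.single Fr.r 1 := by
  rw [omg, val_mul, ← mulVec_mulVec, emb_two_other Fr.hqo.symm Fr.hpo Fr.hqp.symm, emb_two_left]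
  simp [wEl2]

theorem omg_o : (omg Fr : Matrix.SpecialLinearGroup ι F).1 *ᵥ Pi.single Fr.o 1 = (-1 : F) • Pi.single Fr.q 1 := by
  rw [omg, val_mul, ← mulVec_mulVec, emb_two_left]
  rw [show (wEl2 : Matrix.SpecialLinearGroup (Fin 2) F).1 0 0 = 0 by simp [wEl2],
    show (wEl2 : Matrix.SpecialLinearGroup (Fin 2) F).1 1 0 = -1 by simp [wEl2], zero_smul, zero_add,
    mulVec_smul, emb_two_other Fr.hrp.symm Fr.hqp Fr.hqr]

theorem omg_inv : (omg Fr : Matrix.SpecialLinearGroup ι F)⁻¹.1 Fr.o Fr.p = 0 := by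
  have e := congrArg (fun g : Matrix.SpecialLinearGroup ι F => g.1 Fr.p Fr.o) (dual_omg (F := F) Fr)
  have e' := congrFun (omg_o R) Fr.p
  rw [mulVec_single_one, col_apply, Pi.smul_apply, Pi.single_eq_of_ne Fr.hqp.symm, smul_zero] at e'
  simp only [e'] at e
  exact e

theorem Rels.flat : R.data.Flat := by
  refine ⟨cm_trivial_of R.data φ T (omg Fr) rfl (fun _ => rfl) R.omg_commute (omg_p R) (omg_o R)
    (omg_inv R) (by norm_num), ?_⟩
  refine cm_trivial_of R.data.dualD (φ.comp dual) T (omg Fr) rfl (fun s => ?_) ?_ (omg_p R) (omg_o R)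
    (omg_inv R) (by norm_num)
  · show T * φ (emb (two Fr.hpo) (dual s)) * T⁻¹ = T * φ (dual (emb (two Fr.hpo) s)) * T⁻¹
    rw [dual_emb]
  · rw [MonoidHom.comp_apply, dual_omg]
    exact R.omg_commute

/-- The element exchanging two hyperbolic pairs, in matrices. -/
def swapT (Fr : Frame ι) : GL (ι ⊕ ι) F :=
  mM (Matrix.SpecialLinearGroup.toGL (cyc Fr)) *
    (xM (eb Fr.p Fr.o) * yM (-eb Fr.o Fr.p) * xM (eb Fr.p Fr.o)) *
    (mM (Matrix.SpecialLinearGroup.toGL (emb (two Fr.hpo) wEl2)))⁻¹ *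
    (mM (Matrix.SpecialLinearGroup.toGL (cyc Fr)))⁻¹

theorem Rels.pin_mem : (T, swapT Fr) ∈ R.data.gam := by
  let D := R.data
  have hmem : D.lift (cyc Fr) * (D.u0 1 * D.v0 (-1) * D.u0 1) * (D.lift (emb (two Fr.hpo) wEl2))⁻¹ *
      (D.lift (cyc Fr))⁻¹ ∈ D.gam :=
    mul_mem (mul_mem (mul_mem (D.lift_mem_gam _)
      (mul_mem (mul_mem (D.u0_mem_gam _) (D.v0_mem_gam _)) (D.u0_mem_gam _)))
      (inv_mem (D.lift_mem_gam _))) (inv_mem (D.lift_mem_gam _))
  convert hmem using 1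
  have hw : (wEl2 : Matrix.SpecialLinearGroup (Fin 2) F) = up2 1 * lo2 (-1) * up2 1 := by
    refine sl_eq ?_
    rw [val_mul, val_mul, up2_val, lo2_val]
    ext i j; fin_cases i <;> fin_cases j <;> simp [wEl2, Matrix.mul_apply, Fin.sum_univ_two]
  refine Prod.ext ?_ ?_
  · show T = φ (cyc Fr) * (tauG Fr φ T (up2 1) * tauG Fr φ T (lo2 (-1)) * tauG Fr φ T (up2 1)) *
      (φ (emb (two Fr.hpo) wEl2))⁻¹ * (φ (cyc Fr))⁻¹
    rw [← map_mul (tauG Fr φ T), ← map_mul (tauG Fr φ T), ← hw]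
    exact R.pin
  · show swapT Fr = mM _ * (xM ((1 : F) • eb Fr.p Fr.o) * yM ((-1 : F) • eb Fr.o Fr.p) *
      xM ((1 : F) • eb Fr.p Fr.o)) * (mM _)⁻¹ * (mM _)⁻¹
    rw [one_smul, neg_one_smul]
    rfl

omit R in
variable {n : ℕ} {Fn : Frame (Fin n)} {φn : Matrix.SpecialLinearGroup (Fin n) F →* G} in
/-- The homomorphism from `Ω⁺`. -/
theorem exists_omega_hom [Finite F] (R : Rels Fn φn T) (hn : 3 ≤ n) :
    ∃ Ψ : omegaGL (Cfsg.quadFormPlus n F) →* G,
      (∀ g (h : mM (Matrix.SpecialLinearGroup.toGL g) ∈ omegaGL (Cfsg.quadFormPlus n F)), Ψ ⟨_, h⟩ = φn g) ∧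
      (∀ h : swapT Fn ∈ omegaGL (Cfsg.quadFormPlus n F), Ψ ⟨_, h⟩ = T) := by
  let D := R.data
  have him : imG D = omegaGL (Cfsg.quadFormPlus n F) := le_antisymm (imG_le D hn) (le_imG D R.flat hn)
  let s : D.gam →* omegaGL (Cfsg.quadFormPlus n F) :=
    ((MonoidHom.snd G (GL (Fin n ⊕ Fin n) F)).comp D.gam.subtype).codRestrict _
      (fun x => him ▸ ⟨x.1, x.2, rfl⟩)
  have hs : Function.Bijective s := by
    refine ⟨(injective_iff_map_eq_one s).mpr fun x hx => Subtype.ext ?_, fun y => ?_⟩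
    · exact D.gam_inj R.flat x.2 (congrArg Subtype.val hx)
    · obtain ⟨x, hx, e⟩ : (y : GL (Fin n ⊕ Fin n) F) ∈ imG D := him.symm ▸ y.2
      exact ⟨⟨x, hx⟩, Subtype.ext e⟩
  refine ⟨((MonoidHom.fst G (GL (Fin n ⊕ Fin n) F)).comp D.gam.subtype).comp
    (MulEquiv.ofBijective s hs).symm.toMonoidHom, ?_, ?_⟩
  · intro g h
    have e : (MulEquiv.ofBijective s hs).symm ⟨_, h⟩ = ⟨D.lift g, D.lift_mem_gam g⟩ := by
      rw [MulEquiv.symm_apply_eq]; rfl
    show ((MulEquiv.ofBijective s hs).symm ⟨_, h⟩).1.1 = _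
    rw [e]; rfl
  · intro h
    have e : (MulEquiv.ofBijective s hs).symm ⟨_, h⟩ = ⟨(T, swapT Fn), R.pin_mem⟩ := by
      rw [MulEquiv.symm_apply_eq]; rfl
    show ((MulEquiv.ofBijective s hs).symm ⟨_, h⟩).1.1 = _
    rw [e]

end CfsgLib.OmegaPres
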