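import Mathlib
import Cfsg.Agent.OmegaPres.Derive

/-!
The relations hold in the orthogonal group.
-/

set_option autoImplicit false
set_option linter.unusedSectionVars false

namespace CfsgLib.OmegaPres

open Matrix CfsgLib.CurtisTitsA CfsgLib.CurtisTitsD CfsgLib.OrthGeo Cfsg.Geo
open CfsgLib.CurtisTitsD.Data (wEl2)
open CfsgLib.CommutingSLTwo (negOne)
open CfsgLib.Classical.Linear (eq_top_of_transvection_mem)

variable {F : Type*} [Field F] {ι : Type} [Fintype ι] [DecidableEq ι] (Fr : Frame ι)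

/-- The exchange of `inl` and `inr` at two indices. -/
def flipPerm (a b : ι) : Equiv.Perm (ι ⊕ ι) :=
  Equiv.swap (Sum.inl a) (Sum.inr a) * Equiv.swap (Sum.inl b) (Sum.inr b)

theorem flipPerm_inl (a b k : ι) (h : a ≠ b) :
    flipPerm a b (Sum.inl k) = if k = a ∨ k = b then Sum.inr k else Sum.inl k := by
  simp only [flipPerm, Equiv.Perm.mul_apply, Equiv.swap_apply_def]
  by_cases hb : k = b
  · subst hb; simp [h.symm]
  · by_cases ha : k = a <;> simp [ha, hb, h]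

theorem flipPerm_inr (a b k : ι) (h : a ≠ b) :
    flipPerm a b (Sum.inr k) = if k = a ∨ k = b then Sum.inl k else Sum.inr k := by
  simp only [flipPerm, Equiv.Perm.mul_apply, Equiv.swap_apply_def]
  by_cases hb : k = b
  · subst hb; simp [h.symm]
  · by_cases ha : k = a <;> simp [ha, hb, h]

theorem flipPerm_flipPerm (a b : ι) (h : a ≠ b) (x : ι ⊕ ι) : flipPerm a b (flipPerm a b x) = x := by
  rcases x with k | k
  · rw [flipPerm_inl a b k h]
    split_ifs with hk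
    · rw [flipPerm_inr a b k h, if_pos hk]
    · rw [flipPerm_inl a b k h, if_neg hk]
  · rw [flipPerm_inr a b k h]
    split_ifs with hk
    · rw [flipPerm_inl a b k h, if_pos hk]
    · rw [flipPerm_inr a b k h, if_neg hk]

/-- The permutation matrix. -/
def pMat {κ : Type*} [DecidableEq κ] (σ : Equiv.Perm κ) : Matrix κ κ F :=
  Matrix.of fun i j => if σ j = i then 1 else 0

theorem pMat_mul_single {κ : Type*} [Fintype κ] [DecidableEq κ] (σ : Equiv.Perm κ) (i j : κ) (c : F) :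
    pMat σ * (1 + Matrix.single i j c) = (1 + Matrix.single (σ i) (σ j) c) * pMat σ := by
  rw [Matrix.mul_add, Matrix.mul_one, Matrix.add_mul, Matrix.one_mul]
  congr 1
  ext x y
  rw [Matrix.mul_apply, Matrix.mul_apply]
  rw [Finset.sum_eq_single i (fun k _ hk => by simp [Matrix.single_apply, Ne.symm hk]) (by simp),
    Finset.sum_eq_single (σ j) (fun k _ hk => by simp [Matrix.single_apply, Ne.symm hk]) (by simp)]
  by_cases hy : j = y <;> by_cases hx : σ i = x <;>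
    simp [pMat, Matrix.single_apply, hx, hy, σ.injective.eq_iff, Ne.symm, eq_comm]

theorem pMat_mulVec {κ : Type*} [Fintype κ] [DecidableEq κ] (σ : Equiv.Perm κ) (k : κ) :
    (pMat σ : Matrix κ κ F) *ᵥ Pi.single k 1 = Pi.single (σ k) 1 := by
  ext i
  rw [mulVec_single_one, col_apply]
  simp [pMat, Pi.single_apply, eq_comm]

theorem pMat_col {κ : Type*} [Fintype κ] [DecidableEq κ] (σ : Equiv.Perm κ) (k : κ) :
    (pMat σ : Matrix κ κ F).col k = Pi.single (σ k) 1 := by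
  rw [← mulVec_single_one, pMat_mulVec]

theorem mM_dual_val (g : Matrix.SpecialLinearGroup ι F) :
    (mM (Matrix.SpecialLinearGroup.toGL g) : Matrix (ι ⊕ ι) (ι ⊕ ι) F) = fromBlocks g.1 0 0 (dual g).1 := by
  rw [mM_val]
  congr 1

theorem mM_tv_val {a b : ι} (h : a ≠ b) (t : F) :
    (mM (Matrix.SpecialLinearGroup.toGL (tv h t)) : Matrix (ι ⊕ ι) (ι ⊕ ι) F) =
      (1 + Matrix.single (Sum.inl a) (Sum.inl b) t) * (1 + Matrix.single (Sum.inr b) (Sum.inr a) (-t)) := by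
  rw [mM_dual_val, dual_tv, SpecialLinearGroup.transvection_coe, SpecialLinearGroup.transvection_coe,
    Matrix.add_mul, Matrix.one_mul, Matrix.mul_add, Matrix.mul_one,
    Matrix.single_mul_single_of_ne _ _ _ _ (by simp), add_zero]
  ext x y
  rcases x with i | i <;> rcases y with j | j <;>
    simp [Matrix.single_apply, Matrix.one_apply]

theorem xM_eb_val {a b : ι} (h : a ≠ b) (t : F) :
    ((xM (t • eb a b) : GL (ι ⊕ ι) F) : Matrix (ι ⊕ ι) (ι ⊕ ι) F) =
      (1 + Matrix.single (Sum.inl a) (Sum.inr b) t) * (1 + Matrix.single (Sum.inl b) (Sum.inr a) (-t)) := by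
  rw [xM_val, Matrix.add_mul, Matrix.one_mul, Matrix.mul_add, Matrix.mul_one,
    Matrix.single_mul_single_of_ne _ _ _ _ (by simp), add_zero]
  ext x y
  rcases x with i | i <;> rcases y with j | j
  all_goals simp [Matrix.single_apply, Matrix.one_apply]
  rw [eb_apply]
  by_cases h1 : a = i <;> by_cases h2 : b = j <;> by_cases h3 : b = i <;> by_cases h4 : a = j <;>
    simp_all [Pi.single_apply, eq_comm]

theorem yM_eb_val {a b : ι} (h : a ≠ b) (t : F) :
    ((yM (t • eb a b) : GL (ι ⊕ ι) F) : Matrix (ι ⊕ ι) (ι ⊕ ι) F) =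
      (1 + Matrix.single (Sum.inr a) (Sum.inl b) t) * (1 + Matrix.single (Sum.inr b) (Sum.inl a) (-t)) := by
  rw [yM_val, Matrix.add_mul, Matrix.one_mul, Matrix.mul_add, Matrix.mul_one,
    Matrix.single_mul_single_of_ne _ _ _ _ (by simp), add_zero]
  ext x y
  rcases x with i | i <;> rcases y with j | j
  all_goals simp [Matrix.single_apply, Matrix.one_apply]
  rw [eb_apply]
  by_cases h1 : a = i <;> by_cases h2 : b = j <;> by_cases h3 : b = i <;> by_cases h4 : a = j <;>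
    simp_all [Pi.single_apply, eq_comm]

theorem single_pair_comm {κ : Type*} [Fintype κ] [DecidableEq κ] {i j k l : κ} (h1 : j ≠ k) (h2 : l ≠ i)
    (s t : F) : (1 + Matrix.single i j s) * (1 + Matrix.single k l t) =
      (1 + Matrix.single k l t) * (1 + Matrix.single i j s) := by
  rw [Matrix.add_mul, Matrix.one_mul, Matrix.mul_add, Matrix.mul_one,
    Matrix.single_mul_single_of_ne _ _ _ _ h1, Matrix.add_mul, Matrix.one_mul, Matrix.mul_add,
    Matrix.mul_one, Matrix.single_mul_single_of_ne _ _ _ _ h2]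
  abel

theorem one_add_single_mulVec {κ : Type*} [Fintype κ] [DecidableEq κ] (i j k : κ) (c : F) :
    (1 + Matrix.single i j c) *ᵥ Pi.single k 1 = Pi.single k 1 + (if k = j then c else 0) • Pi.single i 1 := by
  ext x
  rw [Matrix.add_mulVec, Matrix.one_mulVec, mulVec_single_one, Pi.add_apply, Pi.add_apply, col_apply]
  by_cases hk : k = j <;> by_cases hx : i = x <;> simp_all [Matrix.single_apply, Pi.single_apply, eq_comm]

theorem mM_mulVec_inl (g : Matrix.SpecialLinearGroup ι F) {k l : ι} {c : F}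
    (h : g.1 *ᵥ Pi.single k 1 = c • Pi.single l 1) :
    (mM (Matrix.SpecialLinearGroup.toGL g) : Matrix (ι ⊕ ι) (ι ⊕ ι) F) *ᵥ Pi.single (Sum.inl k) 1 =
      c • Pi.single (Sum.inl l) 1 := by
  ext x
  have e := fun i => congrFun h i
  simp only [mulVec_single_one, col_apply] at e
  rw [mM_dual_val, mulVec_single_one, col_apply]
  rcases x with i | i <;> simp [e, Pi.single_apply]

theorem mM_mulVec_inr (g : Matrix.SpecialLinearGroup ι F) (hg : dual g = g) {k l : ι} {c : F}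
    (h : g.1 *ᵥ Pi.single k 1 = c • Pi.single l 1) :
    (mM (Matrix.SpecialLinearGroup.toGL g) : Matrix (ι ⊕ ι) (ι ⊕ ι) F) *ᵥ Pi.single (Sum.inr k) 1 =
      c • Pi.single (Sum.inr l) 1 := by
  ext x
  have e := fun i => congrFun h i
  simp only [mulVec_single_one, col_apply] at e
  rw [mM_dual_val, hg, mulVec_single_one, col_apply]
  rcases x with i | i <;> simp [e, Pi.single_apply]

theorem wPO_p : (emb (two Fr.hpo) (wEl2 : Matrix.SpecialLinearGroup (Fin 2) F)).1 *ᵥ Pi.single Fr.p 1 =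
    (-1 : F) • Pi.single Fr.o 1 := by
  rw [emb_two_left]; simp [wEl2]

theorem wPO_o : (emb (two Fr.hpo) (wEl2 : Matrix.SpecialLinearGroup (Fin 2) F)).1 *ᵥ Pi.single Fr.o 1 =
    (1 : F) • Pi.single Fr.p 1 := by
  rw [emb_two_right]; simp [wEl2]

theorem wPO_other {k : ι} (h1 : k ≠ Fr.p) (h2 : k ≠ Fr.o) :
    (emb (two Fr.hpo) (wEl2 : Matrix.SpecialLinearGroup (Fin 2) F)).1 *ᵥ Pi.single k 1 =
      (1 : F) • Pi.single k 1 := by
  rw [emb_two_other _ h1 h2, one_smul]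

theorem cyc_dual : dual (cyc Fr : Matrix.SpecialLinearGroup ι F) = cyc Fr := by
  rw [cyc, map_mul, dual_emb, dual_emb, dual_wEl2]

theorem cyc_p : (cyc Fr : Matrix.SpecialLinearGroup ι F).1 *ᵥ Pi.single Fr.p 1 = (-1 : F) • Pi.single Fr.o 1 := by
  rw [cyc, val_mul, ← mulVec_mulVec, emb_two_other Fr.hqo.symm Fr.hpo Fr.hqp.symm, wPO_p]

theorem cyc_o : (cyc Fr : Matrix.SpecialLinearGroup ι F).1 *ᵥ Pi.single Fr.o 1 = (-1 : F) • Pi.single Fr.q 1 := by
  rw [cyc, val_mul, ← mulVec_mulVec, emb_two_left,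
    show (wEl2 : Matrix.SpecialLinearGroup (Fin 2) F).1 0 0 = 0 by simp [wEl2],
    show (wEl2 : Matrix.SpecialLinearGroup (Fin 2) F).1 1 0 = -1 by simp [wEl2], zero_smul, zero_add,
    mulVec_smul, wPO_other Fr Fr.hqp Fr.hqo, one_smul]

theorem cyc_q : (cyc Fr : Matrix.SpecialLinearGroup ι F).1 *ᵥ Pi.single Fr.q 1 = (1 : F) • Pi.single Fr.p 1 := by
  rw [cyc, val_mul, ← mulVec_mulVec, emb_two_right,
    show (wEl2 : Matrix.SpecialLinearGroup (Fin 2) F).1 0 1 = 1 by simp [wEl2],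
    show (wEl2 : Matrix.SpecialLinearGroup (Fin 2) F).1 1 1 = 0 by simp [wEl2], zero_smul, add_zero,
    mulVec_smul, wPO_o, one_smul]

theorem cyc_other {k : ι} (h1 : k ≠ Fr.p) (h2 : k ≠ Fr.o) (h3 : k ≠ Fr.q) :
    (cyc Fr : Matrix.SpecialLinearGroup ι F).1 *ᵥ Pi.single k 1 = (1 : F) • Pi.single k 1 := by
  rw [cyc, val_mul, ← mulVec_mulVec, emb_two_other Fr.hqo.symm h2 h3, wPO_other Fr h1 h2]

/-- The value of the reflection product. -/
theorem refl_val : ((xM (eb Fr.p Fr.o) * yM (-eb Fr.o Fr.p) * xM (eb Fr.p Fr.o) : GL (ι ⊕ ι) F) :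
      Matrix (ι ⊕ ι) (ι ⊕ ι) F) =
    pMat (flipPerm Fr.p Fr.o) *
      ((mM (Matrix.SpecialLinearGroup.toGL (emb (two Fr.hpo) wEl2)) : GL (ι ⊕ ι) F) : Matrix (ι ⊕ ι) (ι ⊕ ι) F) := by
  have d := dual_emb (F := F) (two Fr.hpo) wEl2
  rw [dual_wEl2] at d
  rw [Units.val_mul, Units.val_mul, show eb Fr.p Fr.o = (1 : F) • eb Fr.p Fr.o from (one_smul F _).symm,
    show -eb Fr.o Fr.p = (-1 : F) • (eb Fr.o Fr.p : Matrix ι ι F) from (neg_one_smul F _).symm,
    xM_eb_val Fr.hpo, yM_eb_val Fr.hpo.symm]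
  refine Matrix.ext_of_mulVec_single fun x => ?_
  rcases x with k | k
  · by_cases hp : k = Fr.p
    · subst hp
      rw [← mulVec_mulVec (Pi.single (Sum.inl Fr.p) 1) (pMat _), mM_mulVec_inl _ (wPO_p Fr), mulVec_smul,
        pMat_mulVec, flipPerm_inl _ _ _ Fr.hpo, if_pos (Or.inr rfl)]
      simp [-mulVec_single_one, -mulVec_single, ← mulVec_mulVec, one_add_single_mulVec, mulVec_add, mulVec_smul, mulVec_neg, Fr.hpo, Fr.hpo.symm]
    by_cases ho : k = Fr.o
    · subst ho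
      rw [← mulVec_mulVec (Pi.single (Sum.inl Fr.o) 1) (pMat _), mM_mulVec_inl _ (wPO_o Fr), mulVec_smul,
        pMat_mulVec, flipPerm_inl _ _ _ Fr.hpo, if_pos (Or.inl rfl)]
      simp [-mulVec_single_one, -mulVec_single, ← mulVec_mulVec, one_add_single_mulVec, mulVec_add, mulVec_smul, mulVec_neg, Fr.hpo, Fr.hpo.symm]
    · rw [← mulVec_mulVec (Pi.single (Sum.inl k) 1) (pMat _), mM_mulVec_inl _ (wPO_other Fr hp ho), one_smul,
        pMat_mulVec, flipPerm_inl _ _ _ Fr.hpo, if_neg (by tauto)]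
      simp [-mulVec_single_one, -mulVec_single, ← mulVec_mulVec, one_add_single_mulVec, hp, ho]
  · by_cases hp : k = Fr.p
    · subst hp
      rw [← mulVec_mulVec (Pi.single (Sum.inr Fr.p) 1) (pMat _), mM_mulVec_inr _ d (wPO_p Fr), mulVec_smul,
        pMat_mulVec, flipPerm_inr _ _ _ Fr.hpo, if_pos (Or.inr rfl)]
      simp [-mulVec_single_one, -mulVec_single, ← mulVec_mulVec, one_add_single_mulVec, mulVec_add, mulVec_smul, mulVec_neg, Fr.hpo, Fr.hpo.symm]
    by_cases ho : k = Fr.o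
    · subst ho
      rw [← mulVec_mulVec (Pi.single (Sum.inr Fr.o) 1) (pMat _), mM_mulVec_inr _ d (wPO_o Fr), mulVec_smul,
        pMat_mulVec, flipPerm_inr _ _ _ Fr.hpo, if_pos (Or.inl rfl)]
      simp [-mulVec_single_one, -mulVec_single, ← mulVec_mulVec, one_add_single_mulVec, mulVec_add, mulVec_smul, mulVec_neg, Fr.hpo, Fr.hpo.symm]
    · rw [← mulVec_mulVec (Pi.single (Sum.inr k) 1) (pMat _), mM_mulVec_inr _ d (wPO_other Fr hp ho), one_smul,
        pMat_mulVec, flipPerm_inr _ _ _ Fr.hpo, if_neg (by tauto)]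
      simp [-mulVec_single_one, -mulVec_single, ← mulVec_mulVec, one_add_single_mulVec, hp, ho]

theorem flip_cyc :
    pMat (flipPerm Fr.o Fr.q) * ((mM (Matrix.SpecialLinearGroup.toGL (cyc Fr)) : GL (ι ⊕ ι) F) : Matrix (ι ⊕ ι) (ι ⊕ ι) F) =
      ((mM (Matrix.SpecialLinearGroup.toGL (cyc Fr)) : GL (ι ⊕ ι) F) : Matrix (ι ⊕ ι) (ι ⊕ ι) F) * pMat (flipPerm Fr.p Fr.o) := by
  have hq := Fr.hqo.symm
  refine Matrix.ext_of_mulVec_single fun x => ?_
  rw [← mulVec_mulVec, ← mulVec_mulVec, pMat_mulVec]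
  rcases x with k | k
  all_goals
    by_cases hp : k = Fr.p
    · subst hp
      simp [flipPerm_inl _ _ _ Fr.hpo, flipPerm_inr _ _ _ Fr.hpo, flipPerm_inl _ _ _ hq, flipPerm_inr _ _ _ hq,
        mM_mulVec_inl _ (cyc_p Fr), mM_mulVec_inr _ (cyc_dual Fr) (cyc_p Fr), mulVec_smul, mulVec_neg, pMat_mulVec, pMat_col]
    by_cases ho : k = Fr.o
    · subst ho
      simp [flipPerm_inl _ _ _ Fr.hpo, flipPerm_inr _ _ _ Fr.hpo, flipPerm_inl _ _ _ hq, flipPerm_inr _ _ _ hq,
        mM_mulVec_inl _ (cyc_o Fr), mM_mulVec_inr _ (cyc_dual Fr) (cyc_o Fr), mulVec_smul, mulVec_neg, pMat_mulVec, pMat_col]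
    by_cases hk : k = Fr.q
    · subst hk
      simp [flipPerm_inl _ _ _ Fr.hpo, flipPerm_inr _ _ _ Fr.hpo, flipPerm_inl _ _ _ hq, flipPerm_inr _ _ _ hq,
        mM_mulVec_inl _ (cyc_q Fr), mM_mulVec_inr _ (cyc_dual Fr) (cyc_q Fr), mulVec_smul, mulVec_neg, pMat_mulVec, pMat_col,
        Fr.hqp, Fr.hqo, Fr.hpo, Fr.hqp.symm]
    · simp [flipPerm_inl _ _ _ Fr.hpo, flipPerm_inr _ _ _ Fr.hpo, flipPerm_inl _ _ _ hq, flipPerm_inr _ _ _ hq,
        mM_mulVec_inl _ (cyc_other Fr hp ho hk), mM_mulVec_inr _ (cyc_dual Fr) (cyc_other Fr hp ho hk),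
        mulVec_smul, mulVec_neg, pMat_mulVec, pMat_col, hp, ho, hk]

/-- The value of the exchanging element. -/
theorem swapT_val : ((swapT Fr : GL (ι ⊕ ι) F) : Matrix (ι ⊕ ι) (ι ⊕ ι) F) = pMat (flipPerm Fr.o Fr.q) := by
  rw [swapT, Units.val_mul, Units.val_mul, Units.val_mul, refl_val,
    Matrix.mul_assoc _ (pMat _ * _), Matrix.mul_assoc (pMat _), Units.mul_inv, Matrix.mul_one,
    ← flip_cyc, Units.mul_inv_cancel_right]

/-- Moving elementary matrices across the exchanging element. -/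
theorem swapT_conj {x y : GL (ι ⊕ ι) F} {i j k l i' j' k' l' : ι ⊕ ι} {s t : F}
    (hx : (x : Matrix (ι ⊕ ι) (ι ⊕ ι) F) = (1 + Matrix.single i j s) * (1 + Matrix.single k l t))
    (hy : (y : Matrix (ι ⊕ ι) (ι ⊕ ι) F) = (1 + Matrix.single i' j' s) * (1 + Matrix.single k' l' t))
    (hi : flipPerm Fr.o Fr.q i = i') (hj : flipPerm Fr.o Fr.q j = j') (hk : flipPerm Fr.o Fr.q k = k')
    (hl : flipPerm Fr.o Fr.q l = l') : swapT Fr * x * (swapT Fr)⁻¹ = y := by
  subst hi hj hk hl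
  rw [mul_inv_eq_iff_eq_mul]
  refine Units.ext ?_
  rw [Units.val_mul, Units.val_mul, swapT_val, hx, hy, ← Matrix.mul_assoc, pMat_mul_single, Matrix.mul_assoc,
    pMat_mul_single, ← Matrix.mul_assoc]

/-- The model of the copy of `SLₙ`. -/
def phi0 : Matrix.SpecialLinearGroup ι F →* GL (ι ⊕ ι) F := mM.comp Matrix.SpecialLinearGroup.toGL

theorem tau0_up (t : F) : tauG Fr (phi0 (F := F)) (swapT Fr) (up2 t) = xM (t • eb Fr.p Fr.o) := by
  rw [tauG_apply, up2, emb_transvection]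
  refine swapT_conj Fr (mM_tv_val _ t) (xM_eb_val Fr.hpo t) ?_ ?_ ?_ ?_ <;>
    simp [flipPerm_inl _ _ _ Fr.hqo.symm, flipPerm_inr _ _ _ Fr.hqo.symm, two_zero, two_one, Fr.hpo, Fr.hqp.symm, Fr.hqo, Fr.hqo.symm]

theorem tau0_lo (t : F) : tauG Fr (phi0 (F := F)) (swapT Fr) (lo2 t) = yM (t • eb Fr.o Fr.p) := by
  rw [tauG_apply, lo2, emb_transvection]
  refine swapT_conj Fr (mM_tv_val _ t) (yM_eb_val Fr.hpo.symm t) ?_ ?_ ?_ ?_ <;>
    simp [flipPerm_inl _ _ _ Fr.hqo.symm, flipPerm_inr _ _ _ Fr.hqo.symm, two_zero, two_one, Fr.hpo, Fr.hqp.symm, Fr.hqo, Fr.hqo.symm]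

/-- Commuting with the conjugated copy. -/
theorem commute_tau0 {g : Matrix.SpecialLinearGroup ι F} (h1 : g.1 * eb Fr.p Fr.o * g.1ᵀ = eb Fr.p Fr.o)
    (h2 : (dual g).1 * eb Fr.p Fr.o * (dual g).1ᵀ = eb Fr.p Fr.o) (s : Matrix.SpecialLinearGroup (Fin 2) F) :
    Commute (phi0 g) (tauG Fr phi0 (swapT Fr) s) := by
  have htop : (Subgroup.centralizer ({phi0 g} : Set (GL (ι ⊕ ι) F))).comap (tauG Fr phi0 (swapT Fr)) = ⊤ :=
    eq_top_of_transvection_mem fun i j hij t => by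
      rw [Subgroup.mem_comap, Subgroup.mem_centralizer_singleton_iff]
      rcases transvection_cases hij t with e | e <;> rw [e]
      · rw [tau0_up]
        refine (mul_inv_eq_iff_eq_mul.mp ?_).symm
        show mM (Matrix.SpecialLinearGroup.toGL g) * _ * (mM (Matrix.SpecialLinearGroup.toGL g))⁻¹ = _
        rw [mM_conj_xM, Matrix.mul_smul, Matrix.smul_mul]
        congr 2
      · rw [tau0_lo]
        refine (mul_inv_eq_iff_eq_mul.mp ?_).symm
        show mM (Matrix.SpecialLinearGroup.toGL g) * _ * (mM (Matrix.SpecialLinearGroup.toGL g))⁻¹ = _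
        rw [mM_conj_yM, Matrix.mul_smul, Matrix.smul_mul]
        congr 2
        rw [← map_inv]
        show ((g⁻¹ : Matrix.SpecialLinearGroup ι F).1)ᵀ * eb Fr.o Fr.p * (g⁻¹ : Matrix.SpecialLinearGroup ι F).1 = _
        rw [← dual_val, ← transpose_transpose (g⁻¹ : Matrix.SpecialLinearGroup ι F).1, ← dual_val, eb_swap,
          Matrix.mul_neg, Matrix.neg_mul, h2]
  have := htop ▸ Subgroup.mem_top s
  rw [Subgroup.mem_comap, Subgroup.mem_centralizer_singleton_iff] at this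
  exact this.symm

theorem eb_fixed_tv {a b : ι} (h : a ≠ b) (hb : b ≠ Fr.p) (hb' : b ≠ Fr.o) (t : F) :
    (tv h t : Matrix.SpecialLinearGroup ι F).1 * eb Fr.p Fr.o * (tv h t : Matrix.SpecialLinearGroup ι F).1ᵀ =
      eb Fr.p Fr.o := by
  rw [wedge_conj_sl, tv_mulVec_single, tv_mulVec_single, if_neg hb.symm, if_neg hb'.symm, zero_smul,
    add_zero, add_zero]
  rfl

theorem eb_fixed_two (s : Matrix.SpecialLinearGroup (Fin 2) F) :
    (emb (two Fr.hpo) s : Matrix.SpecialLinearGroup ι F).1 * eb Fr.p Fr.o *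
      (emb (two Fr.hpo) s : Matrix.SpecialLinearGroup ι F).1ᵀ = eb Fr.p Fr.o := by
  rw [wedge_conj_sl, emb_two_left, emb_two_right]
  have hd := s.2
  rw [det_fin_two] at hd
  show _ = wedge (Pi.single Fr.p 1) (Pi.single Fr.o 1)
  generalize (Pi.single Fr.p 1 : ι → F) = u
  generalize (Pi.single Fr.o 1 : ι → F) = v
  rw [wedge_add_left, wedge_smul_left, wedge_smul_left, wedge_swap (s.1 0 1 • u + s.1 1 1 • v) u,
    wedge_swap (s.1 0 1 • u + s.1 1 1 • v) v, wedge_add_left, wedge_add_left, wedge_smul_left,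
    wedge_smul_left, wedge_smul_left, wedge_smul_left, wedge_self, wedge_self, smul_zero, smul_zero,
    zero_add, add_zero, wedge_swap u v]
  simp only [smul_neg, neg_neg, smul_smul, ← neg_smul, ← add_smul]
  conv_rhs => rw [← one_smul F (wedge u v)]
  congr 1
  linear_combination hd

theorem negPO (k : ι) :
    (emb (two Fr.hpo) (negOne F) : Matrix.SpecialLinearGroup ι F).1 *ᵥ Pi.single k 1 =
      (if k = Fr.p ∨ k = Fr.o then (-1 : F) else 1) • Pi.single k 1 := by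
  by_cases hp : k = Fr.p
  · subst hp; rw [emb_two_left]; simp [negOne, CommutingSLTwo.mk4]
  by_cases ho : k = Fr.o
  · subst ho; rw [emb_two_right]; simp [negOne, CommutingSLTwo.mk4]
  · rw [emb_two_other _ hp ho, if_neg (by tauto), one_smul]

/-- The relations hold in the model. -/
theorem rels0 : Rels Fr (phi0 (F := F)) (swapT Fr) where
  fix a b h hao haq hbo hbq t := by
    refine mul_inv_eq_iff_eq_mul.mp (swapT_conj Fr (mM_tv_val h t) (mM_tv_val h t) ?_ ?_ ?_ ?_) <;>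
      simp [flipPerm_inl _ _ _ Fr.hqo.symm, flipPerm_inr _ _ _ Fr.hqo.symm, hao, haq, hbo, hbq]
  flip s := by
    refine DFunLike.congr_fun (f := (MulAut.conj (swapT Fr)).toMonoidHom.comp (phi0.comp (emb (two Fr.hqo.symm))))
      (g := phi0.comp ((emb (two Fr.hqo.symm)).comp dual)) ?_ s
    refine CfsgLib.Classical.Linear.sl_hom_ext fun i j hij t => ?_
    simp only [MonoidHom.comp_apply, MulEquiv.toMonoidHom_eq_coe, MonoidHom.coe_coe, MulAut.conj_apply,
      dual_transvection, emb_transvection]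
    refine (swapT_conj Fr (mM_tv_val _ t) (y := phi0 _) (i' := Sum.inr (two Fr.hqo.symm i))
      (j' := Sum.inr (two Fr.hqo.symm j)) (k' := Sum.inl (two Fr.hqo.symm j))
      (l' := Sum.inl (two Fr.hqo.symm i)) ?_ ?_ ?_ ?_ ?_)
    · rw [show phi0 _ = mM (Matrix.SpecialLinearGroup.toGL _) from rfl, mM_tv_val, neg_neg]
      exact single_pair_comm (by simp) (by simp) _ _
    all_goals fin_cases i <;> fin_cases j <;>
      simp [flipPerm_inl _ _ _ Fr.hqo.symm, flipPerm_inr _ _ _ Fr.hqo.symm, two_zero, two_one, Fr.hqo, Fr.hqo.symm] at *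
  out a b h ha ha' hb hb' t s :=
    commute_tau0 Fr (eb_fixed_tv Fr h hb hb' t) (by rw [dual_tv]; exact eb_fixed_tv Fr h.symm ha ha' _) s
  inn s' s := commute_tau0 Fr (eb_fixed_two Fr s') (by rw [dual_emb]; exact eb_fixed_two Fr _) s
  neg := by
    have d : dual (emb (two Fr.hpo) (negOne F)) = emb (two Fr.hpo) (negOne F) := by
      rw [dual_emb, show dual (negOne F) = negOne F by
        refine sl_eq ?_
        rw [dual_val, inv2_val]
        ext i j; fin_cases i <;> fin_cases j <;> simp [negOne, CommutingSLTwo.mk4]]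
    rw [tauG_apply, eq_comm, mul_inv_eq_iff_eq_mul]
    refine Units.ext ?_
    show ((swapT Fr : GL (ι ⊕ ι) F) : Matrix (ι ⊕ ι) (ι ⊕ ι) F) * ((mM _ : GL (ι ⊕ ι) F) : Matrix (ι ⊕ ι) (ι ⊕ ι) F) =
      ((mM _ : GL (ι ⊕ ι) F) : Matrix (ι ⊕ ι) (ι ⊕ ι) F) * ((swapT Fr : GL (ι ⊕ ι) F) : Matrix (ι ⊕ ι) (ι ⊕ ι) F)
    rw [swapT_val]
    refine Matrix.ext_of_mulVec_single fun x => ?_
    rw [← mulVec_mulVec, ← mulVec_mulVec, pMat_mulVec]
    rcases x with k | k
    · rw [mM_mulVec_inl _ (negPO Fr k), mulVec_smul, pMat_mulVec, flipPerm_inl _ _ _ Fr.hqo.symm]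
      split_ifs <;> first | rw [mM_mulVec_inr _ d (negPO Fr k)] | rw [mM_mulVec_inl _ (negPO Fr k)]
      all_goals simp_all
    · rw [mM_mulVec_inr _ d (negPO Fr k), mulVec_smul, pMat_mulVec, flipPerm_inr _ _ _ Fr.hqo.symm]
      split_ifs <;> first | rw [mM_mulVec_inr _ d (negPO Fr k)] | rw [mM_mulVec_inl _ (negPO Fr k)]
      all_goals simp_all
  pin := by
    show swapT Fr = _
    rw [show (wEl2 : Matrix.SpecialLinearGroup (Fin 2) F) = up2 1 * lo2 (-1) * up2 1 by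
      refine sl_eq ?_
      rw [val_mul, val_mul, up2_val, lo2_val]
      ext i j; fin_cases i <;> fin_cases j <;> simp [wEl2, Matrix.mul_apply, Fin.sum_univ_two],
      map_mul (tauG Fr _ _), map_mul (tauG Fr _ _), tau0_up, tau0_lo, one_smul, neg_one_smul]
    rw [show (up2 1 * lo2 (-1) * up2 1 : Matrix.SpecialLinearGroup (Fin 2) F) = wEl2 from ?_]
    · rfl
    · refine sl_eq ?_
      rw [val_mul, val_mul, up2_val, lo2_val]
      ext i j; fin_cases i <;> fin_cases j <;> simp [wEl2, Matrix.mul_apply, Fin.sum_univ_two]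

section
variable {n : ℕ} (Fn : Frame (Fin n)) [Finite F]

theorem imG_rels0 (hn : 3 ≤ n) :
    imG (rels0 (F := F) Fn).data = omegaGL (Cfsg.quadFormPlus n F) :=
  le_antisymm (imG_le _ hn) (le_imG _ (rels0 Fn).flat hn)

include Fn in
theorem phi0_mem (hn : 3 ≤ n) (g : Matrix.SpecialLinearGroup (Fin n) F) :
    phi0 g ∈ omegaGL (Cfsg.quadFormPlus n F) :=
  (imG_rels0 (F := F) Fn hn) ▸ ⟨_, (rels0 (F := F) Fn).data.lift_mem_gam g, rfl⟩

theorem swapT_mem (hn : 3 ≤ n) : swapT Fn ∈ omegaGL (Cfsg.quadFormPlus n F) :=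
  (imG_rels0 (F := F) Fn hn) ▸ ⟨_, (rels0 (F := F) Fn).pin_mem, rfl⟩

theorem omegaGL_le (hn : 3 ≤ n) : omegaGL (Cfsg.quadFormPlus n F) ≤
    Subgroup.closure (Set.range (phi0 (F := F) (ι := Fin n)) ∪ {swapT Fn}) := by
  rw [← imG_rels0 Fn hn, imG, Data.gam, MonoidHom.map_closure, Subgroup.closure_le]
  have hT := Subgroup.subset_closure (k := Set.range (phi0 (F := F) (ι := Fin n)) ∪ {swapT Fn}) (Or.inr rfl)
  have hp : ∀ g, phi0 g ∈ Subgroup.closure (Set.range (phi0 (F := F) (ι := Fin n)) ∪ {swapT Fn}) :=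
    fun g => Subgroup.subset_closure (Or.inl ⟨g, rfl⟩)
  rintro _ ⟨x, (⟨g, rfl⟩ | ⟨t, rfl⟩) | ⟨t, rfl⟩, rfl⟩
  · exact hp g
  · show xM (t • eb Fn.p Fn.o) ∈ _
    rw [← tau0_up, tauG_apply]
    exact mul_mem (mul_mem hT (hp _)) (inv_mem hT)
  · show yM (t • eb Fn.o Fn.p) ∈ _
    rw [← tau0_lo, tauG_apply]
    exact mul_mem (mul_mem hT (hp _)) (inv_mem hT)

end

end CfsgLib.OmegaPres
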